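import Cfsg.Agent.Lib.Helper97.Zass.ZhGeo
import Cfsg.Agent.Lib.Helper35.Zass.PLS

/-!
# Project ZASS (S0690), package [ZH-BIG]: at most two lines through a point

Directly from `Geo G` through the abstract counting `Cfsg.Agent.Lib.Helper35.Zass.pls_main`
(points `Pt G`, lines `Ln G`, incidence `inc p M := p ≤ M`).  Also [ZH-LCONST].
-/

set_option autoImplicit false
set_option linter.unusedSectionVars false

namespace Cfsg.Agent.Lib.Helper97.Zass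

open Cfsg.Agent.Lib.Helper51.Zass Cfsg.Agent.Lib.Helper3.Zass Cfsg.Agent.Lib.Helper35.Zass

universe u

/-- the points: subgroups of order 3. -/
abbrev Pt (G : Type u) [Group G] : Type u := {P : Subgroup G // Nat.card P = 3}

/-- the lines. -/
abbrev Ln (G : Type u) [Group G] : Type u := {L : Subgroup G // IsLine L}

/-- incidence. -/
def inc {G : Type u} [Group G] (p : Pt G) (M : Ln G) : Prop := p.1 ≤ M.1

theorem ncard_subtype_set {α : Type*} (q r : α → Prop) :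
    {x : {a // q a} | r x.1}.ncard = {a | q a ∧ r a}.ncard := by
  rw [← Set.ncard_image_of_injective _ Subtype.val_injective]
  congr 1
  ext a
  constructor
  · rintro ⟨x, hx, rfl⟩
    exact ⟨x.2, hx⟩
  · rintro ⟨h1, h2⟩
    exact ⟨⟨a, h1⟩, h2, rfl⟩

variable {G : Type u} [Group G]

/-- conjugates of lines are lines. -/
theorem isLine_map {L : Subgroup G} (hL : IsLine L) (g : G) :
    IsLine (L.map (MulAut.conj g).toMonoidHom) := by
  obtain ⟨f, hf, hk⟩ := hL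
  have hinj : Function.Injective (MulAut.conj g).toMonoidHom := (MulAut.conj g).injective
  let e : L ≃* L.map (MulAut.conj g).toMonoidHom := L.equivMapOfInjective _ hinj
  refine ⟨f.comp e.symm.toMonoidHom, hf.comp e.symm.surjective, ?_⟩
  have h1 := card_eq_ker_mul (f.comp e.symm.toMonoidHom) (hf.comp e.symm.surjective)
  have h2 := card_eq_ker_mul f hf
  have h3 : Nat.card (L.map (MulAut.conj g).toMonoidHom) = Nat.card L :=
    (Nat.card_congr e.toEquiv).symm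
  rw [card_alt4] at h1 h2
  omega

variable [Finite G]

theorem lines_le (P : Subgroup G) (g : G) :
    {L : Subgroup G | IsLine L ∧ P ≤ L}.ncard ≤
      {L : Subgroup G | IsLine L ∧ P.map (MulAut.conj g).toMonoidHom ≤ L}.ncard := by
  apply Set.ncard_le_ncard_of_injOn (fun L => L.map (MulAut.conj g).toMonoidHom)
  · rintro L ⟨hL, hPL⟩
    exact ⟨isLine_map hL g, Subgroup.map_mono hPL⟩
  · intro L _ L' _ hLL'
    exact Subgroup.map_injective (MulAut.conj g).injective hLL'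

/-- all points lie on the same number of lines. -/
theorem lines_const (h : Geo G) (P Q : Subgroup G) (hP : Nat.card P = 3) (hQ : Nat.card Q = 3) :
    {L : Subgroup G | IsLine L ∧ P ≤ L}.ncard = {L : Subgroup G | IsLine L ∧ Q ≤ L}.ncard := by
  obtain ⟨g, rfl⟩ := h.conj P Q hP hQ
  obtain ⟨g', hg'⟩ := h.conj (P.map (MulAut.conj g).toMonoidHom) P hQ hP
  apply le_antisymm (lines_le P g)
  have := lines_le (P.map (MulAut.conj g).toMonoidHom) g'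
  rw [← hg'] at this
  exact this

/-- [ZH-LCONST] -/
theorem pkgZhLConst : PkgZhLConst.{u} := by
  intro G _ _ h P Q hP hQ
  exact lines_const h P Q hP hQ

/-- collinearity = the join has order 24. -/
theorem adj_iff (h : Geo G) (p w : Pt G) :
    plsAdj (inc (G := G)) p w ↔ Nat.card ↥(p.1 ⊔ w.1) = 24 := by
  constructor
  · rintro ⟨hne, M, hp, hw⟩
    rw [h.lineGen M.1 p.1 w.1 M.2 p.2 w.2 hp hw (fun e => hne (Subtype.ext e))]
    exact h.lineCard _ M.2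
  · intro hc
    have hne : p ≠ w := by
      rintro rfl
      rw [sup_idem] at hc
      have := p.2
      omega
    refine ⟨hne, ?_⟩
    rcases h.pair p.1 w.1 p.2 w.2 (fun e => hne (Subtype.ext e)) with hl | hpl
    · exact ⟨⟨_, hl⟩, le_sup_left, le_sup_right⟩
    · have := h.planeCard _ hpl
      omega

theorem geo_h4 (h : Geo G) (M : Ln G) : {p : Pt G | inc p M}.ncard = 4 :=
  (ncard_subtype_set (fun P : Subgroup G => Nat.card P = 3) (fun P => P ≤ M.1)).trans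
    (h.line4 M.1 M.2)

theorem geo_huniq (h : Geo G) (p w : Pt G) (M M' : Ln G) (hne : p ≠ w) (hp : inc p M)
    (hw : inc w M) (hp' : inc p M') (hw' : inc w M') : M = M' := by
  apply Subtype.ext
  exact (h.lineGen M.1 p.1 w.1 M.2 p.2 w.2 hp hw (fun e => hne (Subtype.ext e))).symm.trans
    (h.lineGen M'.1 p.1 w.1 M'.2 p.2 w.2 hp' hw' (fun e => hne (Subtype.ext e)))

theorem geo_hl (h : Geo G) (p₀ p : Pt G) :
    {M : Ln G | inc p M}.ncard = {L : Subgroup G | IsLine L ∧ p₀.1 ≤ L}.ncard :=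
  (ncard_subtype_set (fun L : Subgroup G => IsLine L) (fun L => p.1 ≤ L)).trans
    (lines_const h p.1 p₀.1 p.2 p₀.2)

theorem geo_hT (h : Geo G) (p : Pt G) (M M1 : Ln G) (a : Pt G) (hne : M ≠ M1) (hp : inc p M)
    (hp1 : inc p M1) (ha : inc a M) (hap : a ≠ p) :
    ∃! c, inc c M1 ∧ c ≠ p ∧ plsAdj (inc (G := G)) a c := by
  have hPl : IsPlane (M.1 ⊔ M1.1) :=
    h.t1 p.1 M.1 M1.1 p.2 M.2 M1.2 hp hp1 (fun e => hne (Subtype.ext e))
  have hpa : p.1 ⊔ a.1 = M.1 :=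
    h.lineGen M.1 p.1 a.1 M.2 p.2 a.2 hp ha (fun e => hap (Subtype.ext e.symm))
  have hpa24 : Nat.card ↥(p.1 ⊔ a.1) = 24 := by rw [hpa]; exact h.lineCard _ M.2
  have hpPl : p.1 ≤ M.1 ⊔ M1.1 := le_trans hp le_sup_left
  have haPl : a.1 ≤ M.1 ⊔ M1.1 := le_trans ha le_sup_left
  have h1 := h.plane1 _ p.1 a.1 hPl p.2 a.2 hpPl haPl hpa24
  have h6 := h.plane6 _ p.1 hPl p.2 hpPl
  obtain ⟨R, hR⟩ := Set.ncard_eq_one.mp h1
  have hRmem : R ∈ {R : Subgroup G | Nat.card R = 3 ∧ R ≤ M.1 ⊔ M1.1 ∧ ¬ R ≤ p.1 ⊔ a.1 ∧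
      Nat.card ↥(p.1 ⊔ R) = 24 ∧ Nat.card ↥(a.1 ⊔ R) = 24} := by rw [hR]; exact rfl
  obtain ⟨hR3, hRPl, hRnM, hpR, haR⟩ := hRmem
  rw [hpa] at hRnM
  -- the points other than `p` of a line through `p`
  have hthree : ∀ N : Ln G, inc p N →
      ({Q : Subgroup G | Nat.card Q = 3 ∧ Q ≤ N.1} \ {p.1}).ncard = 3 := by
    intro N hpN
    rw [Set.ncard_sdiff_singleton_of_mem
      (show p.1 ∈ {Q : Subgroup G | Nat.card Q = 3 ∧ Q ≤ N.1} from ⟨p.2, hpN⟩),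
      h.line4 N.1 N.2]
  have hsub : ∀ N : Ln G, inc p N → N.1 ≤ M.1 ⊔ M1.1 →
      ({Q : Subgroup G | Nat.card Q = 3 ∧ Q ≤ N.1} \ {p.1}) ⊆
        {Q : Subgroup G | Nat.card Q = 3 ∧ Q ≤ M.1 ⊔ M1.1 ∧ Nat.card ↥(p.1 ⊔ Q) = 24} := by
    rintro N hpN hNPl Q ⟨⟨hQ3, hQN⟩, hQp⟩
    refine ⟨hQ3, hQN.trans hNPl, ?_⟩
    rw [h.lineGen N.1 p.1 Q N.2 p.2 hQ3 hpN hQN (fun e => hQp e.symm)]
    exact h.lineCard _ N.2
  have hdisj : Disjoint ({Q : Subgroup G | Nat.card Q = 3 ∧ Q ≤ M.1} \ {p.1})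
      ({Q : Subgroup G | Nat.card Q = 3 ∧ Q ≤ M1.1} \ {p.1}) := by
    rw [Set.disjoint_left]
    rintro Q ⟨⟨hQ3, hQM⟩, hQp⟩ ⟨⟨_, hQM1⟩, _⟩
    apply hne
    apply Subtype.ext
    exact (h.lineGen M.1 p.1 Q M.2 p.2 hQ3 hp hQM (fun e => hQp e.symm)).symm.trans
      (h.lineGen M1.1 p.1 Q M1.2 p.2 hQ3 hp1 hQM1 (fun e => hQp e.symm))
  have hunion : ({Q : Subgroup G | Nat.card Q = 3 ∧ Q ≤ M.1} \ {p.1}) ∪
      ({Q : Subgroup G | Nat.card Q = 3 ∧ Q ≤ M1.1} \ {p.1}) =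
        {Q : Subgroup G | Nat.card Q = 3 ∧ Q ≤ M.1 ⊔ M1.1 ∧ Nat.card ↥(p.1 ⊔ Q) = 24} := by
    apply Set.eq_of_subset_of_ncard_le
      (Set.union_subset (hsub M hp le_sup_left) (hsub M1 hp1 le_sup_right))
    rw [h6, Set.ncard_union_eq hdisj, hthree M hp, hthree M1 hp1]
  have hRM1 : R ≤ M1.1 := by
    have hRin : R ∈ {Q : Subgroup G | Nat.card Q = 3 ∧ Q ≤ M.1 ⊔ M1.1 ∧
        Nat.card ↥(p.1 ⊔ Q) = 24} := ⟨hR3, hRPl, hpR⟩
    rw [← hunion] at hRin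
    rcases hRin with ⟨⟨_, hRM⟩, _⟩ | ⟨⟨_, hRM1⟩, _⟩
    · exact absurd hRM hRnM
    · exact hRM1
  have hRp : R ≠ p.1 := by
    intro e
    rw [e, sup_idem] at hpR
    have := p.2
    omega
  refine ⟨⟨R, hR3⟩, ⟨hRM1, fun e => hRp (congrArg Subtype.val e),
    (adj_iff h a ⟨R, hR3⟩).mpr haR⟩, ?_⟩
  rintro c ⟨hcM1, hcp, hac⟩
  apply Subtype.ext
  have hcmem : c.1 ∈ {R : Subgroup G | Nat.card R = 3 ∧ R ≤ M.1 ⊔ M1.1 ∧ ¬ R ≤ p.1 ⊔ a.1 ∧
      Nat.card ↥(p.1 ⊔ R) = 24 ∧ Nat.card ↥(a.1 ⊔ R) = 24} := by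
    refine ⟨c.2, le_trans hcM1 le_sup_right, ?_, ?_, (adj_iff h a c).mp hac⟩
    · rw [hpa]
      intro hcM
      exact hne (geo_huniq h p c M M1 (fun e => hcp e.symm) hp hcM hp1 hcM1)
    · rw [h.lineGen M1.1 p.1 c.1 M1.2 p.2 c.2 hp1 hcM1 (fun e => hcp (Subtype.ext e.symm))]
      exact h.lineCard _ M1.2
  rw [hR] at hcmem
  exact hcmem

theorem geo_hmu (h : Geo G) (p w : Pt G) (hne : p ≠ w) (hna : ¬ plsAdj (inc (G := G)) p w) :
    {c | plsAdj (inc (G := G)) p c ∧ plsAdj (inc (G := G)) w c}.ncard = 4 := by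
  have hPl : IsPlane (p.1 ⊔ w.1) := by
    rcases h.pair p.1 w.1 p.2 w.2 (fun e => hne (Subtype.ext e)) with hl | hpl
    · exact absurd ⟨hne, ⟨_, hl⟩, le_sup_left, le_sup_right⟩ hna
    · exact hpl
  have h4 := h.plane4 _ p.1 w.1 hPl p.2 w.2 le_sup_left le_sup_right rfl
  refine Eq.trans ?_ ((ncard_subtype_set (fun R : Subgroup G => Nat.card R = 3)
    (fun R => R ≤ p.1 ⊔ w.1 ∧ Nat.card ↥(p.1 ⊔ R) = 24 ∧ Nat.card ↥(w.1 ⊔ R) = 24)).trans h4)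
  congr 1
  ext c
  simp only [Set.mem_ofPred_eq]
  constructor
  · rintro ⟨hpc, hwc⟩
    refine ⟨?_, (adj_iff h p c).mp hpc, (adj_iff h w c).mp hwc⟩
    obtain ⟨hpc', M, hpM, hcM⟩ := hpc
    obtain ⟨hwc', M', hwM', hcM'⟩ := hwc
    have hMM' : M ≠ M' := by
      rintro rfl
      exact hna ⟨hne, M, hpM, hwM'⟩
    have hPl' : IsPlane (M.1 ⊔ M'.1) :=
      h.t1 c.1 M.1 M'.1 c.2 M.2 M'.2 hcM hcM' (fun e => hMM' (Subtype.ext e))
    have hle : p.1 ⊔ w.1 ≤ M.1 ⊔ M'.1 := sup_le_sup hpM hwM'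
    have heq : p.1 ⊔ w.1 = M.1 ⊔ M'.1 :=
      Subgroup.eq_of_le_of_card_ge hle (by rw [h.planeCard _ hPl, h.planeCard _ hPl'])
    rw [heq]
    exact le_trans hcM le_sup_left
  · rintro ⟨_, hpc, hwc⟩
    exact ⟨(adj_iff h p c).mpr hpc, (adj_iff h w c).mpr hwc⟩

/-- [ZH-BIG], directly from `Geo G` (no SRG / DEG / LAM / MU hypotheses needed). -/
theorem pkgZhBig' : PkgZhBig.{u} := by
  intro G _ _ h P hP
  exact (pls_main (inc (G := G)) _ ⟨⟨P, hP⟩⟩ (geo_h4 h) (geo_huniq h)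
    (fun p => geo_hl h ⟨P, hP⟩ p) (geo_hT h) (geo_hmu h)).1

/-- the number of points is 1, 4 or 10 (for ZH-SMALL). -/
theorem geo_card_pts (h : Geo G) (P : Subgroup G) (hP : Nat.card P = 3) :
    2 * Nat.card (Pt G) = 3 * {L : Subgroup G | IsLine L ∧ P ≤ L}.ncard ^ 2 +
      3 * {L : Subgroup G | IsLine L ∧ P ≤ L}.ncard + 2 :=
  (pls_main (inc (G := G)) _ ⟨⟨P, hP⟩⟩ (geo_h4 h) (geo_huniq h)
    (fun p => geo_hl h ⟨P, hP⟩ p) (geo_hT h) (geo_hmu h)).2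

end Cfsg.Agent.Lib.Helper97.Zass
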