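import Cfsg.Agent.Lib.Helper3.Zass.ZhDefs

/-!
# Project ZASS (S0690), package [ZH-GEO]: the incidence geometry `Geo G` from the packages
PAIR, T1, STR24, STR120, UI, CONJ.
-/

set_option autoImplicit false

namespace Cfsg.Agent.Lib.Helper97.Zass

open Cfsg.Agent.Lib.Helper51.Zass Cfsg.Agent.Lib.Helper3.Zass

universe u

/-- the order of a group mapping onto `A` with kernel `ker f`. -/
theorem card_eq_ker_mul {H A : Type*} [Group H] [Group A] (f : H →* A)
    (hf : Function.Surjective f) : Nat.card H = Nat.card f.ker * Nat.card A := by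
  rw [Subgroup.card_eq_card_quotient_mul_card_subgroup f.ker,
    Nat.card_congr (QuotientGroup.quotientKerEquivOfSurjective f hf).toEquiv, mul_comm]

theorem card_alt4 : Nat.card (alternatingGroup (Fin 4)) = 12 := by
  rw [Nat.card_eq_fintype_card]
  have h := two_mul_card_alternatingGroup (α := Fin 4)
  rw [Fintype.card_perm, Fintype.card_fin] at h
  have h4 : Nat.factorial 4 = 24 := rfl
  omega

theorem card_alt5 : Nat.card (alternatingGroup (Fin 5)) = 60 := by
  rw [Nat.card_eq_fintype_card]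
  have h := two_mul_card_alternatingGroup (α := Fin 5)
  rw [Fintype.card_perm, Fintype.card_fin] at h
  have h5 : Nat.factorial 5 = 120 := rfl
  omega

variable {G : Type u} [Group G]

theorem card_of_isLine {H : Subgroup G} (h : IsLine H) : Nat.card H = 24 := by
  obtain ⟨f, hf, hk⟩ := h
  rw [card_eq_ker_mul f hf, hk, card_alt4]

theorem card_of_isPlane {H : Subgroup G} (h : IsPlane H) : Nat.card H = 120 := by
  obtain ⟨f, hf, hk⟩ := h
  rw [card_eq_ker_mul f hf, hk, card_alt5]

/-- a point is generated by an element of order 3. -/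
theorem pt_gen [Finite G] {P : Subgroup G} (hP : Nat.card P = 3) :
    ∃ a : G, orderOf a = 3 ∧ P = Subgroup.zpowers a := by
  have : Nontrivial P := by
    rw [← Finite.one_lt_card_iff_nontrivial]; omega
  obtain ⟨x, hx⟩ := exists_ne (1 : P)
  have hox : orderOf x = 3 := by
    have hdvd : orderOf x ∣ 3 := hP ▸ orderOf_dvd_natCard x
    rcases (Nat.dvd_prime (by norm_num)).mp hdvd with h1 | h3
    · exact absurd (orderOf_eq_one_iff.mp h1) hx
    · exact h3
  have hox' : orderOf (x : G) = 3 := by rw [Subgroup.orderOf_coe, hox]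
  refine ⟨x.1, hox', ?_⟩
  symm
  apply Subgroup.eq_of_le_of_card_ge
  · rw [Subgroup.zpowers_le]; exact x.2
  · rw [Nat.card_zpowers, hox', hP]

theorem closure_pair_eq (a b : G) :
    Subgroup.closure {a, b} = Subgroup.zpowers a ⊔ Subgroup.zpowers b := by
  rw [Subgroup.zpowers_eq_closure, Subgroup.zpowers_eq_closure, ← Subgroup.closure_union]
  rfl

theorem closure_triple_eq (w a b : G) :
    Subgroup.closure {w, a, b} = Subgroup.closure {w, a} ⊔ Subgroup.closure {w, b} := by
  rw [← Subgroup.closure_union]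
  congr 1
  ext x
  simp only [Set.mem_insert_iff, Set.mem_singleton_iff, Set.mem_union]
  tauto

/-- two distinct points span a line or a plane. -/
theorem join_shape [Finite G]
    (hp : ∀ a b : G, orderOf a = 3 → orderOf b = 3 → Shape (Subgroup.closure {a, b}))
    {P Q : Subgroup G} (hP : Nat.card P = 3) (hQ : Nat.card Q = 3) (hne : P ≠ Q) :
    IsLine (P ⊔ Q) ∨ IsPlane (P ⊔ Q) := by
  obtain ⟨a, ha, rfl⟩ := pt_gen hP
  obtain ⟨b, hb, rfl⟩ := pt_gen hQ
  have hs := hp a b ha hb
  rw [closure_pair_eq] at hs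
  rcases hs with h1 | h3 | hl | hpl
  · exfalso
    have := Subgroup.card_le_of_le
      (le_sup_left : Subgroup.zpowers a ≤ Subgroup.zpowers a ⊔ Subgroup.zpowers b)
    omega
  · exfalso
    have e1 : Subgroup.zpowers a = Subgroup.zpowers a ⊔ Subgroup.zpowers b :=
      Subgroup.eq_of_le_of_card_ge le_sup_left (by omega)
    have e2 : Subgroup.zpowers b = Subgroup.zpowers a ⊔ Subgroup.zpowers b :=
      Subgroup.eq_of_le_of_card_ge le_sup_right (by omega)
    exact hne (e1.trans e2.symm)
  · exact Or.inl hl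
  · exact Or.inr hpl

/-- [ZH-GEO] -/
theorem pkgZhGeo (hPair : PkgPair.{u}) (hT1 : PkgT1.{u}) (h24 : PkgStr24.{u})
    (h120 : PkgStr120.{u}) (hUI : PkgUI.{u}) (hConj : PkgConj.{u}) : PkgZhGeo.{u} := by
  intro G _ _ hG
  have hU := hUI G hG
  have hline4 : ∀ L : Subgroup G, IsLine L →
      Set.ncard {P : Subgroup G | Nat.card P = 3 ∧ P ≤ L} = 4 := fun L hL => (h24 G hU L hL).1
  have hlineGen : ∀ L P Q : Subgroup G, IsLine L → Nat.card P = 3 → Nat.card Q = 3 → P ≤ L →
      Q ≤ L → P ≠ Q → P ⊔ Q = L := fun L P Q hL hP hQ hPL hQL hne =>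
    (h24 G hU L hL).2 P Q hP hQ hPL hQL hne
  refine
    { pair := fun P Q hP hQ hne => join_shape (hPair G hG) hP hQ hne
      t1 := ?_
      line4 := hline4
      lineGen := hlineGen
      plane6 := fun Pl P hPl hP hle => (h120 G hU Pl hPl).1 P hP hle
      plane4 := fun Pl P Q hPl hP hQ hPle hQle hsup =>
        (h120 G hU Pl hPl).2.1 P Q hP hQ hPle hQle hsup
      plane1 := fun Pl P Q hPl hP hQ hPle hQle hc =>
        (h120 G hU Pl hPl).2.2 P Q hP hQ hPle hQle hc
      conj := hConj G hG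
      lineCard := fun L hL => card_of_isLine hL
      planeCard := fun Pl hPl => card_of_isPlane hPl }
  intro W L M hW hL hM hWL hWM hne
  obtain ⟨w, hw, rfl⟩ := pt_gen hW
  -- a second point on `L`
  have exL : ∀ L : Subgroup G, IsLine L → Subgroup.zpowers w ≤ L →
      ∃ a : G, orderOf a = 3 ∧ Subgroup.closure {w, a} = L := by
    intro L hL hWL
    have h4 := hline4 L hL
    obtain ⟨A, hA, hAW⟩ := Set.exists_ne_of_one_lt_ncard (by rw [h4]; norm_num)
      (Subgroup.zpowers w)
    obtain ⟨a, ha, rfl⟩ := pt_gen hA.1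
    refine ⟨a, ha, ?_⟩
    rw [closure_pair_eq]
    exact hlineGen L _ _ hL hW hA.1 hWL hA.2 (fun e => hAW e.symm)
  obtain ⟨a, ha, hLa⟩ := exL L hL hWL
  obtain ⟨b, hb, hMb⟩ := exL M hM hWM
  have hpl := hT1 G hG w a b hw ha hb (by rw [hLa]; exact hL) (by rw [hMb]; exact hM)
    (by rw [hLa, hMb]; exact hne)
  rw [closure_triple_eq, hLa, hMb] at hpl
  exact hpl

end Cfsg.Agent.Lib.Helper97.Zass
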